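/-
# Groups in which all nonabelian subgroups are self-normalizing

`SN G` says: every nonabelian subgroup of `G` contains its normalizer.
-/
import Mathlib
import Cfsg.Agent.Lib.CyclicSylow.Local

set_option autoImplicit false

open Subgroup

namespace Cfsg.Agent.Lib.SelfNorm

universe u

/-- Every nonabelian subgroup is self-normalizing. -/
def SN (G : Type*) [Group G] : Prop :=
  ∀ H : Subgroup G, (∃ a ∈ H, ∃ b ∈ H, a * b ≠ b * a) → ∀ g ∈ normalizer (H : Set G), g ∈ H

section Basic

variable {G : Type*} [Group G]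

theorem not_comm_of_not_isMulCommutative {H : Subgroup G} (h : ¬ IsMulCommutative H) :
    ∃ a ∈ H, ∃ b ∈ H, a * b ≠ b * a := by
  by_contra hc
  push Not at hc
  apply h
  refine ⟨⟨fun a b => Subtype.ext ?_⟩⟩
  exact hc a a.2 b b.2

theorem not_isMulCommutative_of_not_comm {H : Subgroup G} (h : ∃ a ∈ H, ∃ b ∈ H, a * b ≠ b * a) :
    ¬ IsMulCommutative H := by
  obtain ⟨a, ha, b, hb, hab⟩ := h
  intro hc
  apply hab
  have := mul_comm' (⟨a, ha⟩ : H) ⟨b, hb⟩
  exact congrArg Subtype.val this

theorem sn_iff : SN G ↔ ∀ H : Subgroup G, ¬ IsMulCommutative H → normalizer (H : Set G) = H := by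
  constructor
  · intro h H hH
    apply le_antisymm
    · exact h H (not_comm_of_not_isMulCommutative hH)
    · exact le_normalizer
  · intro h H hH g hg
    have := h H (not_isMulCommutative_of_not_comm hH)
    rw [this] at hg
    exact hg

/-- A subgroup normalized by an element outside it is abelian. -/
theorem SN.comm_of_normalized (hS : SN G) {K : Subgroup G} {g : G}
    (hg : g ∈ normalizer (K : Set G)) (hgK : g ∉ K) {a b : G} (ha : a ∈ K) (hb : b ∈ K) :
    a * b = b * a := by
  by_contra hab
  exact hgK (hS K ⟨a, ha, b, hb, hab⟩ g hg)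

/-- Transport along an isomorphism. -/
theorem SN.of_equiv {G' : Type*} [Group G'] (hS : SN G) (e : G' ≃* G) : SN G' := by
  intro H hH g hg
  obtain ⟨a, ha, b, hb, hab⟩ := hH
  have h1 := hS (H.map e.toMonoidHom) ⟨e a, ⟨a, ha, rfl⟩, e b, ⟨b, hb, rfl⟩, ?_⟩ (e g) ?_
  · obtain ⟨y, hy, hye⟩ := h1
    have : y = g := e.injective hye
    rwa [← this]
  · intro h
    apply hab
    apply e.injective
    simpa using h
  · rw [mem_normalizer_iff] at hg ⊢
    intro x
    constructor
    · rintro ⟨y, hy, rfl⟩
      refine ⟨g * y * g⁻¹, (hg y).1 hy, ?_⟩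
      simp
    · rintro ⟨y, hy, hye⟩
      refine ⟨g⁻¹ * y * g, ?_, ?_⟩
      · have := (hg (g⁻¹ * y * g)).2 (by simpa [mul_assoc] using hy)
        exact this
      · have h2 : e y = e g * x * (e g)⁻¹ := hye
        show e (g⁻¹ * y * g) = x
        simp only [map_mul, map_inv]
        rw [h2]
        group

/-- Passes to subgroups. -/
theorem SN.subgroup (hS : SN G) (L : Subgroup G) : SN L := by
  intro H hH g hg
  obtain ⟨a, ha, b, hb, hab⟩ := hH
  have h1 := hS (H.map L.subtype) ⟨a, ⟨a, ha, rfl⟩, b, ⟨b, hb, rfl⟩, ?_⟩ g ?_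
  · obtain ⟨y, hy, hye⟩ := h1
    have : y = g := Subtype.ext hye
    rwa [← this]
  · intro h
    apply hab
    apply Subtype.ext
    simpa using h
  · rw [mem_normalizer_iff] at hg ⊢
    intro x
    constructor
    · rintro ⟨y, hy, rfl⟩
      refine ⟨g * y * g⁻¹, (hg y).1 hy, ?_⟩
      simp
    · rintro ⟨y, hy, hye⟩
      have hxL : x ∈ L := by
        have h2 : (g : G) * x * (g : G)⁻¹ = (y : G) := hye.symm
        have h3 : x = (g : G)⁻¹ * y * g := by rw [← h2]; group
        rw [h3]
        exact L.mul_mem (L.mul_mem (L.inv_mem g.2) y.2) g.2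
      refine ⟨⟨x, hxL⟩, ?_, rfl⟩
      have h4 := (hg ⟨x, hxL⟩).2
      apply h4
      have : g * ⟨x, hxL⟩ * g⁻¹ = y := Subtype.ext hye.symm
      rw [this]
      exact hy

/-- Passes to quotients. -/
theorem SN.quotient (hS : SN G) (K : Subgroup G) [K.Normal] : SN (G ⧸ K) := by
  intro H hH g hg
  obtain ⟨a, ha, b, hb, hab⟩ := hH
  obtain ⟨a', rfl⟩ := QuotientGroup.mk'_surjective K a
  obtain ⟨b', rfl⟩ := QuotientGroup.mk'_surjective K b
  obtain ⟨g', rfl⟩ := QuotientGroup.mk'_surjective K g
  have h1 : g' ∈ H.comap (QuotientGroup.mk' K) := by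
    apply hS (H.comap (QuotientGroup.mk' K)) ⟨a', ha, b', hb, ?_⟩
    · rw [mem_normalizer_iff] at hg ⊢
      intro x
      have := hg (QuotientGroup.mk' K x)
      simpa [mem_comap] using this
    · intro h
      apply hab
      have := congrArg (QuotientGroup.mk' K) h
      simpa using this
  exact h1

end Basic

section Simple

variable {G : Type*} [Group G] [Finite G]

/-- Nonabelian simple groups are not `p`-groups. -/
theorem not_isPGroup_of_simple [IsSimpleGroup G] (hna : ¬ IsMulCommutative G) {p : ℕ}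
    [Fact p.Prime] : ¬ IsPGroup p G := by
  intro hp
  haveI : Nontrivial G := IsSimpleGroup.toNontrivial
  have hc := hp.center_nontrivial
  have hn : (center G).Normal := inferInstance
  rcases hn.eq_bot_or_eq_top with h | h
  · rw [h] at hc
    exact not_nontrivial _ hc
  · apply hna
    refine ⟨⟨fun a b => ?_⟩⟩
    have : a ∈ center G := by rw [h]; trivial
    exact (mem_center_iff.1 this b).symm

end Simple

end Cfsg.Agent.Lib.SelfNorm
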