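/-
# The fixed-point alternative for coprime elements in `SN` groups
-/
import Mathlib
import Cfsg.Agent.Lib.SelfNorm.Basic
import Cfsg.Agent.Lib.Transfer.Frobenius

set_option autoImplicit false

open Subgroup
open scoped Pointwise

namespace Cfsg.Agent.Lib.SelfNorm

section Nu

variable {G : Type*} [Group G]

/-- Partial norm `a · a^g ⋯ a^{g^{k-1}}`. -/
def nu (g a : G) : ℕ → G
  | 0 => 1
  | k + 1 => nu g a k * (g ^ k * a * (g ^ k)⁻¹)

variable {E : Subgroup G} {g : G}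

theorem conj_pow_mem (hg : ∀ e ∈ E, g * e * g⁻¹ ∈ E) (k : ℕ) {e : G} (he : e ∈ E) :
    g ^ k * e * (g ^ k)⁻¹ ∈ E := by
  induction k with
  | zero => simpa using he
  | succ k ih =>
    have : g ^ (k + 1) * e * (g ^ (k + 1))⁻¹ = g * (g ^ k * e * (g ^ k)⁻¹) * g⁻¹ := by
      rw [pow_succ']; group
    rw [this]
    exact hg _ ih

theorem nu_mem (hg : ∀ e ∈ E, g * e * g⁻¹ ∈ E) (k : ℕ) {a : G} (ha : a ∈ E) : nu g a k ∈ E := by
  induction k with
  | zero => exact E.one_mem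
  | succ k ih => exact E.mul_mem ih (conj_pow_mem hg k ha)

theorem nu_mul (hg : ∀ e ∈ E, g * e * g⁻¹ ∈ E) (hE : ∀ a ∈ E, ∀ b ∈ E, a * b = b * a) (k : ℕ)
    {a b : G} (ha : a ∈ E) (hb : b ∈ E) : nu g (a * b) k = nu g a k * nu g b k := by
  induction k with
  | zero => simp [nu]
  | succ k ih =>
    show nu g (a * b) k * (g ^ k * (a * b) * (g ^ k)⁻¹) =
      (nu g a k * (g ^ k * a * (g ^ k)⁻¹)) * (nu g b k * (g ^ k * b * (g ^ k)⁻¹))
    rw [ih]
    have h1 : g ^ k * (a * b) * (g ^ k)⁻¹ = (g ^ k * a * (g ^ k)⁻¹) * (g ^ k * b * (g ^ k)⁻¹) := by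
      group
    rw [h1]
    have h2 := hE _ (nu_mem hg k hb) _ (conj_pow_mem hg k ha)
    calc nu g a k * nu g b k * ((g ^ k * a * (g ^ k)⁻¹) * (g ^ k * b * (g ^ k)⁻¹))
        = nu g a k * (nu g b k * (g ^ k * a * (g ^ k)⁻¹)) * (g ^ k * b * (g ^ k)⁻¹) := by group
      _ = nu g a k * ((g ^ k * a * (g ^ k)⁻¹) * nu g b k) * (g ^ k * b * (g ^ k)⁻¹) := by rw [h2]
      _ = _ := by group

theorem nu_of_comm {a : G} (h : g * a = a * g) (k : ℕ) : nu g a k = a ^ k := by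
  induction k with
  | zero => simp [nu]
  | succ k ih =>
    show nu g a k * (g ^ k * a * (g ^ k)⁻¹) = a ^ (k + 1)
    have : g ^ k * a = a * g ^ k := ((Commute.pow_left h k))
    rw [ih, this, pow_succ]
    group

theorem nu_comm (hg : ∀ e ∈ E, g * e * g⁻¹ ∈ E) (hE : ∀ a ∈ E, ∀ b ∈ E, a * b = b * a) (k : ℕ)
    {a : G} (ha : a ∈ E) : nu g (g * a * g⁻¹ * a⁻¹) k = g ^ k * a * (g ^ k)⁻¹ * a⁻¹ := by
  induction k with
  | zero => simp [nu]
  | succ k ih =>
    show nu g (g * a * g⁻¹ * a⁻¹) k * (g ^ k * (g * a * g⁻¹ * a⁻¹) * (g ^ k)⁻¹) = _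
    rw [ih]
    set x := g ^ k * a * (g ^ k)⁻¹ with hx
    set z := g ^ (k + 1) * a * (g ^ (k + 1))⁻¹ with hz
    have h1 : g ^ k * (g * a * g⁻¹ * a⁻¹) * (g ^ k)⁻¹ = z * x⁻¹ := by
      rw [hz, hx, pow_succ]; group
    rw [h1]
    have hxE : x ∈ E := conj_pow_mem hg k ha
    have hzE : z ∈ E := conj_pow_mem hg (k + 1) ha
    have h2 : a⁻¹ * z = z * a⁻¹ := hE _ (E.inv_mem ha) _ hzE
    have h3 : x * z = z * x := hE _ hxE _ hzE
    have h4 : a⁻¹ * x⁻¹ = x⁻¹ * a⁻¹ := hE _ (E.inv_mem ha) _ (E.inv_mem hxE)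
    calc x * a⁻¹ * (z * x⁻¹) = x * (a⁻¹ * z) * x⁻¹ := by group
      _ = x * (z * a⁻¹) * x⁻¹ := by rw [h2]
      _ = (x * z) * (a⁻¹ * x⁻¹) := by group
      _ = (z * x) * (x⁻¹ * a⁻¹) := by rw [h3, h4]
      _ = z * a⁻¹ := by group

end Nu

section Main

variable {G : Type*} [Group G] [Finite G]

theorem eq_one_of_pow_coprime {p : ℕ} [Fact p.Prime] {E : Subgroup G} (hEp : IsPGroup p E)
    {a : G} (ha : a ∈ E) {n : ℕ} (hn : Nat.Coprime n p) (han : a ^ n = 1) : a = 1 := by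
  obtain ⟨k, hk⟩ := hEp ⟨a, ha⟩
  have hk' : a ^ p ^ k = 1 := by simpa using congrArg Subtype.val hk
  have h1 : orderOf a ∣ n := orderOf_dvd_of_pow_eq_one han
  have h2 : orderOf a ∣ p ^ k := orderOf_dvd_of_pow_eq_one hk'
  have h3 : orderOf a ∣ Nat.gcd n (p ^ k) := Nat.dvd_gcd h1 h2
  have h4 : Nat.gcd n (p ^ k) = 1 := Nat.Coprime.pow_right k hn
  rw [h4, Nat.dvd_one] at h3
  exact orderOf_eq_one_iff.1 h3

/-- The abelian case of the alternative. -/
theorem fpf_abelian (hS : SN G) {p : ℕ} [Fact p.Prime] {E : Subgroup G} (hEp : IsPGroup p E)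
    (hE : ∀ a ∈ E, ∀ b ∈ E, a * b = b * a) {g : G} (hg : g ∈ normalizer (E : Set G))
    (hgo : Nat.Coprime (orderOf g) p) {y : G} (hy : y ∈ E) (hy1 : y ≠ 1) (hyg : g * y = y * g) :
    ∀ e ∈ E, g * e = e * g := by
  classical
  by_contra hcon
  push Not at hcon
  obtain ⟨e₀, he₀, hne⟩ := hcon
  have hgE : ∀ e ∈ E, g * e * g⁻¹ ∈ E := fun e he => (mem_normalizer_iff.1 hg e).1 he
  have hginvE : ∀ e ∈ E, g⁻¹ * e * g ∈ E := by
    intro e he
    have := (mem_normalizer_iff.1 hg (g⁻¹ * e * g)).2 (by simpa [mul_assoc] using he)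
    exact this
  set n := orderOf g with hn
  have hgn : g ^ n = 1 := pow_orderOf_eq_one g
  -- the kernel of the norm
  let D : Subgroup G :=
    { carrier := {a | a ∈ E ∧ nu g a n = 1}
      mul_mem' := by
        rintro a b ⟨ha, ha'⟩ ⟨hb, hb'⟩
        refine ⟨E.mul_mem ha hb, ?_⟩
        rw [nu_mul hgE hE n ha hb, ha', hb', one_mul]
      one_mem' := by
        refine ⟨E.one_mem, ?_⟩
        rw [nu_of_comm (by simp) n, one_pow]
      inv_mem' := by
        rintro a ⟨ha, ha'⟩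
        refine ⟨E.inv_mem ha, ?_⟩
        have h1 := nu_mul hgE hE n (E.inv_mem ha) ha
        rw [inv_mul_cancel, nu_of_comm (by simp) n, one_pow, ha', mul_one] at h1
        exact h1.symm }
  have hD : ∀ a, a ∈ D ↔ a ∈ E ∧ nu g a n = 1 := fun a => Iff.rfl
  have hcommD : ∀ a ∈ E, g * a * g⁻¹ * a⁻¹ ∈ D := by
    intro a ha
    refine (hD _).2 ⟨E.mul_mem (hgE a ha) (E.inv_mem ha), ?_⟩
    rw [nu_comm hgE hE n ha, hgn]
    simp
  have hgD : g ∈ normalizer (D : Set G) := by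
    apply Cfsg.Agent.Lib.CyclicSylow.mem_normalizer_of_conj_mem
    intro a ha
    obtain ⟨haE, hanu⟩ := (hD a).1 ha
    refine (hD _).2 ⟨hgE a haE, ?_⟩
    have h1 : g * a * g⁻¹ = (g * a * g⁻¹ * a⁻¹) * a := by group
    rw [h1, nu_mul hgE hE n (E.mul_mem (hgE a haE) (E.inv_mem haE)) haE, hanu, mul_one,
      nu_comm hgE hE n haE, hgn]
    simp
  have hle : zpowers g ≤ normalizer (D : Set G) := by
    rw [zpowers_le]; exact hgD
  set H : Subgroup G := zpowers g ⊔ D with hHdef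
  have hcoe : (H : Set G) = (zpowers g : Set G) * (D : Set G) :=
    coe_mul_of_left_le_normalizer_right (zpowers g) D hle
  have hgH : g ∈ H := mem_sup_left (mem_zpowers g)
  have hDH : D ≤ H := le_sup_right
  -- `H` is nonabelian
  have hnab : ∃ a ∈ H, ∃ b ∈ H, a * b ≠ b * a := by
    by_contra hc
    push Not at hc
    have hd := hcommD e₀ he₀
    have hdc : g * (g * e₀ * g⁻¹ * e₀⁻¹) = (g * e₀ * g⁻¹ * e₀⁻¹) * g := hc _ hgH _ (hDH hd)
    have h1 := ((hD _).1 hd).2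
    rw [nu_of_comm hdc n] at h1
    have h2 := eq_one_of_pow_coprime hEp ((hD _).1 hd).1 hgo h1
    apply hne
    have h3 : g * e₀ * g⁻¹ = e₀ := by
      have := mul_inv_eq_one.1 h2
      exact this
    calc g * e₀ = g * e₀ * g⁻¹ * g := by group
      _ = e₀ * g := by rw [h3]
  -- `E` normalizes `H`
  have hEH : ∀ e ∈ E, e ∈ normalizer (H : Set G) := by
    intro e he
    apply Cfsg.Agent.Lib.CyclicSylow.mem_normalizer_of_conj_mem
    have hsub : H ≤ H.comap (MulAut.conj e).toMonoidHom := by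
      apply sup_le
      · rw [zpowers_le]
        show e * g * e⁻¹ ∈ H
        have he' := hginvE e he
        have h1 : e * g * e⁻¹ = g * (g * (g⁻¹ * e * g) * g⁻¹ * (g⁻¹ * e * g)⁻¹)⁻¹ := by group
        rw [h1]
        exact H.mul_mem hgH (H.inv_mem (hDH (hcommD _ he')))
      · intro d hd
        show e * d * e⁻¹ ∈ H
        have h1 : e * d = d * e := hE _ he _ ((hD d).1 hd).1
        rw [h1]
        simpa using hDH hd
    intro x hx
    exact hsub hx
  have hyH : y ∈ H := hS H hnab y (hEH y hy)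
  have hyH' : y ∈ (H : Set G) := hyH
  rw [hcoe] at hyH'
  obtain ⟨z, hz, d, hd, hzd⟩ := hyH'
  have hzE : z ∈ E := by
    have h1 : z = y * d⁻¹ := by rw [← hzd]; simp
    rw [h1]
    exact E.mul_mem hy (E.inv_mem ((hD d).1 hd).1)
  have hz1 : z = 1 := by
    apply eq_one_of_pow_coprime hEp hzE hgo
    obtain ⟨k, rfl⟩ := hz
    rw [← zpow_natCast, ← zpow_mul, mul_comm, zpow_mul, zpow_natCast, hgn, one_zpow]
  have hyd : y = d := by
    have : (1 : G) * d = y := by rw [← hz1]; exact hzd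
    simpa using this.symm
  have h5 := ((hD d).1 hd).2
  rw [← hyd, nu_of_comm hyg n] at h5
  exact hy1 (eq_one_of_pow_coprime hEp hy hgo h5)

/-- **The alternative.** A coprime element normalizing a `p`-subgroup `E` and fixing a nontrivial
element of `E` centralizes `E`. -/
theorem fpf (hS : SN G) {p : ℕ} [Fact p.Prime] {E : Subgroup G} (hEp : IsPGroup p E)
    {g : G} (hg : g ∈ normalizer (E : Set G))
    (hgo : Nat.Coprime (orderOf g) p) {y : G} (hy : y ∈ E) (hy1 : y ≠ 1) (hyg : g * y = y * g) :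
    ∀ e ∈ E, g * e = e * g := by
  by_cases hE : ∀ a ∈ E, ∀ b ∈ E, a * b = b * a
  · exact fpf_abelian hS hEp hE hg hgo hy hy1 hyg
  · push Not at hE
    obtain ⟨a, ha, b, hb, hab⟩ := hE
    have hgE : g ∈ E := hS E ⟨a, ha, b, hb, hab⟩ g hg
    have hg1 : g = 1 := eq_one_of_pow_coprime hEp hgE hgo (pow_orderOf_eq_one g)
    intro e _
    simp [hg1]

/-- A simple nonabelian group is not `p`-nilpotent. -/
theorem exists_frobenius_witness [IsSimpleGroup G] (hna : ¬ IsMulCommutative G) {p : ℕ}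
    [Fact p.Prime] (P : Sylow p G) (hpd : p ∣ Nat.card G) :
    ∃ Q : Subgroup G, Q ≤ (P : Subgroup G) ∧ ∃ g ∈ normalizer (Q : Set G),
      Nat.Coprime (orderOf g) p ∧ g ∉ centralizer (Q : Set G) := by
  by_contra hcon
  push Not at hcon
  obtain ⟨N, hN, hcomp⟩ := (Cfsg.Agent.Lib.Transfer.Frobenius.exists_normal_complement_iff P).2 hcon
  have hcard := hcomp.card_mul_card
  rcases hN.eq_bot_or_eq_top with h | h
  · rw [h] at hcard
    simp only [card_bot, one_mul] at hcard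
    have hP : (P : Subgroup G) = ⊤ := eq_top_of_card_eq _ hcard
    apply not_isPGroup_of_simple hna (p := p)
    have := P.isPGroup'
    intro g
    obtain ⟨k, hk⟩ := this ⟨g, by rw [hP]; trivial⟩
    exact ⟨k, by simpa using congrArg Subtype.val hk⟩
  · rw [h] at hcard
    simp only [card_top] at hcard
    have hcpos : 0 < Nat.card G := Nat.card_pos
    have h1 : Nat.card (P : Subgroup G) = 1 := by
      nlinarith [Nat.card_pos (α := (P : Subgroup G))]
    have h2 : (P : Subgroup G) = ⊥ := (Subgroup.eq_bot_iff_card _).2 h1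
    exact P.ne_bot_of_dvd_card hpd h2

end Main

end Cfsg.Agent.Lib.SelfNorm
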