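/-
# Centralizers of elements of prime order in `SN` groups
-/
import Mathlib
import Cfsg.Agent.Lib.SelfNorm.Fpf
import Cfsg.Agent.Lib.CyclicSylow.Basic

set_option autoImplicit false
set_option linter.style.haveILetI false

open Subgroup
open scoped Pointwise

namespace Cfsg.Agent.Lib.SelfNorm

section General

variable {G : Type*} [Group G]

theorem mem_C {x g : G} : g ∈ centralizer ({x} : Set G) ↔ g * x = x * g := by
  rw [mem_centralizer_singleton_iff]

theorem pow_eq_one_of_mem_isPGroup {p : ℕ} {E : Subgroup G} (hE : IsPGroup p E) {a : G}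
    (ha : a ∈ E) : ∃ k : ℕ, a ^ p ^ k = 1 := by
  obtain ⟨k, hk⟩ := hE ⟨a, ha⟩
  exact ⟨k, by simpa using congrArg Subtype.val hk⟩

theorem isPGroup_of_pow {p : ℕ} {E : Subgroup G} (h : ∀ a ∈ E, ∃ k : ℕ, a ^ p ^ k = 1) :
    IsPGroup p E := by
  rintro ⟨a, ha⟩
  obtain ⟨k, hk⟩ := h a ha
  exact ⟨k, Subtype.ext (by simpa using hk)⟩

end General

section Main

variable {G : Type*} [Group G] [Finite G] {p : ℕ} [hp : Fact p.Prime]

/-- Central elements of order `p` force `p`-nilpotence in an `SN` group. -/
theorem central_complement (hS : SN G) {x : G} (hx : x ∈ center G) (hxp : orderOf x = p)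
    (P : Sylow p G) : ∃ N : Subgroup G, N.Normal ∧ N.IsComplement' (P : Subgroup G) := by
  classical
  apply (Cfsg.Agent.Lib.Transfer.Frobenius.exists_normal_complement_iff P).2
  intro Q hQ g hg hgo
  have hxc : ∀ a : G, a * x = x * a := fun a => (mem_center_iff.1 hx a)
  haveI hnorm : (zpowers x).Normal := by
    constructor
    rintro _ ⟨k, rfl⟩ a
    refine ⟨k, ?_⟩
    have : Commute a (x ^ k) := ((show Commute a x from hxc a).zpow_right k)
    show x ^ k = a * x ^ k * a⁻¹
    rw [this.eq]
    group
  have hxpg : IsPGroup p (zpowers x) := by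
    apply isPGroup_of_pow
    rintro _ ⟨k, rfl⟩
    refine ⟨1, ?_⟩
    show (x ^ k) ^ p ^ 1 = 1
    rw [pow_one, ← zpow_natCast, ← zpow_mul, mul_comm, zpow_mul, zpow_natCast, ← hxp,
      pow_orderOf_eq_one, one_zpow]
  have hEp : IsPGroup p (Q ⊔ zpowers x : Subgroup G) :=
    (P.isPGroup'.to_le hQ).to_sup_of_normal_right hxpg
  have hgE : g ∈ normalizer ((Q ⊔ zpowers x : Subgroup G) : Set G) := by
    apply Cfsg.Agent.Lib.CyclicSylow.mem_normalizer_of_conj_mem
    have hsub : (Q ⊔ zpowers x : Subgroup G) ≤
        (Q ⊔ zpowers x : Subgroup G).comap (MulAut.conj g).toMonoidHom := by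
      apply sup_le
      · intro a ha
        exact mem_sup_left ((mem_normalizer_iff.1 hg a).1 ha)
      · rw [zpowers_le]
        show g * x * g⁻¹ ∈ (Q ⊔ zpowers x : Subgroup G)
        rw [hxc g]
        simpa using mem_sup_right (mem_zpowers x)
    intro a ha
    exact hsub ha
  have hx1 : x ≠ 1 := by
    rintro rfl
    rw [orderOf_one] at hxp
    exact hp.out.one_lt.ne hxp
  have := fpf hS hEp hgE hgo (mem_sup_right (mem_zpowers x)) hx1 (hxc g)
  rw [mem_centralizer_iff]
  intro h hh
  exact (this h (mem_sup_left hh)).symm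

/-- The structure of an `SN` group with a central element of prime order. -/
theorem cent_structure (hS : SN G) (hna : ∃ a b : G, a * b ≠ b * a) {x : G} (hx : x ∈ center G)
    (hxp : orderOf x = p) (P : Sylow p G) : IsPGroup p G ∨ IsCyclic (P : Subgroup G) := by
  classical
  obtain ⟨N, hN, hcomp⟩ := central_complement hS hx hxp P
  have hpd : p ∣ Nat.card G := by rw [← hxp]; exact orderOf_dvd_natCard x
  have hPne : (P : Subgroup G) ≠ ⊥ := P.ne_bot_of_dvd_card hpd
  have hNtop : N ≠ ⊤ := by
    intro h
    have hcard := hcomp.card_mul_card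
    rw [h, card_top] at hcard
    have h1 : Nat.card (P : Subgroup G) = 1 := by
      nlinarith [Nat.card_pos (α := (P : Subgroup G)), Nat.card_pos (α := G)]
    exact hPne ((Subgroup.eq_bot_iff_card _).2 h1)
  have hproper : ∀ R : Subgroup G, R.Normal → R ≠ ⊤ → ∀ a ∈ R, ∀ b ∈ R, a * b = b * a := by
    intro R hR hRt a ha b hb
    haveI := hR
    have : ∃ c, c ∉ R := by
      by_contra hc
      push Not at hc
      exact hRt (eq_top_iff.2 fun c _ => hc c)
    obtain ⟨c, hc⟩ := this
    have hcN : c ∈ normalizer (R : Set G) := by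
      rw [normalizer_eq_top R]; trivial
    exact hS.comm_of_normalized hcN hc ha hb
  have hNcomm := hproper N hN hNtop
  have hsup : N ⊔ (P : Subgroup G) = ⊤ := hcomp.sup_eq_top
  by_cases hcomm : ∀ u ∈ (P : Subgroup G), ∀ n ∈ N, u * n = n * u
  · -- `P` centralizes `N`
    left
    have hPn : normalizer (((P : Subgroup G)) : Set G) = ⊤ := by
      rw [eq_top_iff, ← hsup]
      apply sup_le
      · intro n hn
        apply Cfsg.Agent.Lib.CyclicSylow.mem_normalizer_of_conj_mem
        intro u hu
        rw [← hcomm u hu n hn]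
        simpa using hu
      · exact le_normalizer
    have hPnab : ∃ a ∈ (P : Subgroup G), ∃ b ∈ (P : Subgroup G), a * b ≠ b * a := by
      by_contra hc
      push Not at hc
      obtain ⟨a, b, hab⟩ := hna
      apply hab
      have hdec : ∀ g : G, ∃ n ∈ N, ∃ u ∈ (P : Subgroup G), g = n * u := by
        intro g
        have hg : g ∈ ((N ⊔ (P : Subgroup G) : Subgroup G) : Set G) := by rw [hsup]; trivial
        rw [normal_mul] at hg
        obtain ⟨n, hn, u, hu, rfl⟩ := hg
        exact ⟨n, hn, u, hu, rfl⟩
      obtain ⟨n, hn, u, hu, rfl⟩ := hdec a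
      obtain ⟨n', hn', u', hu', rfl⟩ := hdec b
      calc n * u * (n' * u') = n * (u * n') * u' := by group
        _ = n * (n' * u) * u' := by rw [hcomm u hu n' hn']
        _ = (n * n') * (u * u') := by group
        _ = (n' * n) * (u' * u) := by rw [hNcomm n hn n' hn', hc u hu u' hu']
        _ = n' * (n * u') * u := by group
        _ = n' * (u' * n) * u := by rw [hcomm u' hu' n hn]
        _ = n' * u' * (n * u) := by group
    have hPtop : (P : Subgroup G) = ⊤ := by
      rw [eq_top_iff]
      intro g _
      apply hS _ hPnab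
      rw [hPn]; trivial
    intro g
    obtain ⟨k, hk⟩ := P.isPGroup' ⟨g, by rw [hPtop]; trivial⟩
    exact ⟨k, by simpa using congrArg Subtype.val hk⟩
  · -- `P` acts nontrivially: it is cyclic
    right
    push Not at hcomm
    obtain ⟨u, hu, n, hn, hun⟩ := hcomm
    by_contra hnc
    let u' : (P : Subgroup G) := ⟨u, hu⟩
    have hzt : zpowers u' ≠ ⊤ := by
      intro h
      exact hnc (isCyclic_iff_exists_zpowers_eq_top.2 ⟨u', h⟩)
    obtain ⟨M', hM', huM⟩ := (eq_top_or_exists_le_coatom (zpowers u')).resolve_left hzt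
    haveI : Group.IsNilpotent (P : Subgroup G) := P.isPGroup'.isNilpotent
    have hM'n : M'.Normal :=
      NormalizerCondition.normal_of_coatom M' Group.normalizerCondition_of_isNilpotent hM'
    set M : Subgroup G := M'.map (P : Subgroup G).subtype with hMdef
    have huMM : u ∈ M := ⟨u', huM (mem_zpowers u'), rfl⟩
    have hR : (N ⊔ M).Normal := by
      rw [← normalizer_eq_top_iff, eq_top_iff, ← hsup]
      apply sup_le
      · exact (le_sup_left.trans le_normalizer)
      · intro w hw
        apply Cfsg.Agent.Lib.CyclicSylow.mem_normalizer_of_conj_mem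
        have hsub : N ⊔ M ≤ (N ⊔ M).comap (MulAut.conj w).toMonoidHom := by
          apply sup_le
          · intro a ha
            exact mem_sup_left (hN.conj_mem a ha w)
          · rintro _ ⟨m, hm, rfl⟩
            apply mem_sup_right
            refine ⟨⟨w, hw⟩ * m * ⟨w, hw⟩⁻¹, hM'n.conj_mem m hm _, ?_⟩
            simp
        intro a ha
        exact hsub ha
    have hRt : N ⊔ M ≠ ⊤ := by
      intro h
      obtain ⟨v, hv⟩ : ∃ v, v ∉ M' := by
        by_contra hc
        push Not at hc
        exact hM'.1 (eq_top_iff.2 fun c _ => hc c)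
      have hg : (v : G) ∈ ((N ⊔ M : Subgroup G) : Set G) := by rw [h]; trivial
      rw [normal_mul] at hg
      obtain ⟨a, ha, b, hb, hab⟩ := hg
      obtain ⟨m, hm, rfl⟩ := hb
      have hab' : (a : G) = v * (m : G)⁻¹ := by
        rw [← hab]; simp
      have h3 : a ∈ (P : Subgroup G) := by
        rw [hab']
        exact (P : Subgroup G).mul_mem v.2 ((P : Subgroup G).inv_mem m.2)
      have h4 : a = 1 := by
        have := hcomp.disjoint
        exact Subgroup.disjoint_def.1 this ha h3
      apply hv
      have h5 : (v : G) = m := by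
        have h6 : (1 : G) * m = v := by
          rw [← h4]; exact hab
        simpa using h6.symm
      have h7 : v = m := Subtype.ext h5
      rwa [h7]
    exact hun (hproper _ hR hRt u (mem_sup_right huMM) n (mem_sup_left hn))

/-- A central element of order `p` in a nontrivial `p`-subgroup. -/
theorem exists_central_of_order {S : Subgroup G} (hS : IsPGroup p S) (hne : S ≠ ⊥) :
    ∃ z ∈ S, orderOf z = p ∧ ∀ s ∈ S, z * s = s * z := by
  classical
  haveI : Nontrivial S := by
    rwa [Subgroup.nontrivial_iff_ne_bot]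
  haveI := hS.center_nontrivial
  have hpc : IsPGroup p (center S) := hS.to_subgroup (center S)
  obtain ⟨k, hk0, hk⟩ := hpc.nontrivial_iff_card.1 inferInstance
  have hd : p ∣ Nat.card (center S) := by rw [hk]; exact dvd_pow_self p hk0.ne'
  obtain ⟨z, hz⟩ := exists_prime_orderOf_dvd_card' p hd
  refine ⟨((z : S) : G), (z : S).2, ?_, ?_⟩
  · rw [← hz]
    rw [Subgroup.orderOf_coe, Subgroup.orderOf_coe]
  · intro s hs
    have := (mem_center_iff.1 z.2 ⟨s, hs⟩).symm
    exact congrArg Subtype.val this

/-- An element of order `p` in a nontrivial `p`-subgroup. -/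
theorem exists_of_order {S : Subgroup G} (hS : IsPGroup p S) (hne : S ≠ ⊥) :
    ∃ z ∈ S, orderOf z = p := by
  obtain ⟨z, hz, hzo, _⟩ := exists_central_of_order hS hne
  exact ⟨z, hz, hzo⟩

/-- Proper subgroups of `p`-subgroups are abelian. -/
theorem SN.comm_of_lt (hS : SN G) {M T : Subgroup G} (hT : IsPGroup p T) (hMT : M < T)
    {a b : G} (ha : a ∈ M) (hb : b ∈ M) : a * b = b * a := by
  obtain ⟨c, hcT, hcM, hcN⟩ := Cfsg.Agent.Lib.Transfer.Frobenius.exists_mem_normalizer_of_lt hT hMT
  exact hS.comm_of_normalized hcN hcM ha hb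

end Main

end Cfsg.Agent.Lib.SelfNorm
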