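/-
# Centralizers of elements of prime order in simple `SN` groups
-/
import Mathlib
import Cfsg.Agent.Lib.SelfNorm.Cent

set_option autoImplicit false
set_option linter.style.haveILetI false

open Subgroup
open scoped Pointwise

namespace Cfsg.Agent.Lib.SelfNorm

universe u

section Main

variable {G : Type u} [Group G] [Finite G] {p : ℕ} [hp : Fact p.Prime]

/-- A simple nonabelian group has no normal `p`-complement. -/
theorem no_normal_complement [IsSimpleGroup G] (hna : ¬ IsMulCommutative G)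
    (P : Sylow p G) (hpd : p ∣ Nat.card G) {N : Subgroup G} (hN : N.Normal)
    (hcomp : N.IsComplement' (P : Subgroup G)) : False := by
  have hcard := hcomp.card_mul_card
  rcases hN.eq_bot_or_eq_top with h | h
  · rw [h] at hcard
    simp only [card_bot, one_mul] at hcard
    have hP : (P : Subgroup G) = ⊤ := eq_top_of_card_eq _ hcard
    apply not_isPGroup_of_simple hna (p := p)
    have := P.isPGroup'
    intro g
    obtain ⟨k, hk⟩ := this ⟨g, by rw [hP]; trivial⟩
    exact ⟨k, by simpa using congrArg Subtype.val hk⟩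
  · rw [h] at hcard
    simp only [card_top] at hcard
    have hcpos : 0 < Nat.card G := Nat.card_pos
    have h1 : Nat.card (P : Subgroup G) = 1 := by
      nlinarith [Nat.card_pos (α := (P : Subgroup G))]
    have h2 : (P : Subgroup G) = ⊥ := (Subgroup.eq_bot_iff_card _).2 h1
    exact P.ne_bot_of_dvd_card hpd h2

/-- The Sylow `2`-subgroups of a simple nonabelian group are not cyclic. -/
theorem not_cyclic_sylow_two [IsSimpleGroup G] (hna : ¬ IsMulCommutative G)
    (h2 : 2 ∣ Nat.card G) (P : Sylow 2 G) : ¬ IsCyclic (P : Subgroup G) := by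
  intro hc
  haveI : Fact (Nat.Prime 2) := ⟨Nat.prime_two⟩
  have hmin : (Nat.card G).minFac = 2 := (Nat.minFac_eq_two_iff _).mpr h2
  have hcomp := IsCyclic.isComplement' hmin hc
  exact no_normal_complement hna P h2 (MonoidHom.normal_ker _) hcomp

theorem no_cyclic_case [IsSimpleGroup G] (hna : ¬ IsMulCommutative G) (hS : SN G) {x : G}
    (hxp : orderOf x = p) {C : Subgroup G} (hC : C = centralizer ({x} : Set G))
    (hCna : ∃ a ∈ C, ∃ b ∈ C, a * b ≠ b * a)
    (P : Sylow p C)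
    (hP : IsCyclic (P : Subgroup C)) : False := by
  classical
  have memC : ∀ {g : G}, g ∈ C ↔ g * x = x * g := by
    intro g; rw [hC]; exact mem_C
  have hxC : x ∈ C := memC.2 rfl
  have hxpow : x ^ p = 1 := by rw [← hxp]; exact pow_orderOf_eq_one x
  have hx1 : x ≠ 1 := by
    rintro rfl
    rw [orderOf_one] at hxp
    exact hp.out.one_lt.ne hxp
  have hpd : p ∣ Nat.card G := by rw [← hxp]; exact orderOf_dvd_natCard x
  let x' : C := ⟨x, hxC⟩
  set P₁ : Subgroup G := (P : Subgroup C).map C.subtype with hP₁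
  have hP₁p : IsPGroup p P₁ := P.isPGroup'.map C.subtype
  have hP₁c : IsCyclic P₁ := by
    haveI := hP
    exact isCyclic_of_surjective (C.subtype.subgroupMap (P : Subgroup C))
      (C.subtype.subgroupMap_surjective _)
  have hP₁C : P₁ ≤ C := by
    rintro _ ⟨c, _, rfl⟩
    exact c.2
  have hx'P : x' ∈ (P : Subgroup C) := by
    apply Cfsg.Agent.Lib.CyclicSylow.mem_sylow_of_mem_normalizer P (k := 1)
    · apply Cfsg.Agent.Lib.CyclicSylow.mem_normalizer_of_conj_mem
      intro u hu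
      have : x' * u = u * x' := Subtype.ext (memC.1 u.2).symm
      rw [this]
      simpa using hu
    · apply Subtype.ext
      simpa [x'] using hxpow
  have hxP₁ : x ∈ P₁ := ⟨x', hx'P, rfl⟩
  have hmax : ∀ W : Subgroup G, IsPGroup p W → P₁ ≤ W → W ≤ C → W ≤ P₁ := by
    intro W hWp hP₁W hWC w hw
    have h1 : IsPGroup p (W.subgroupOf C) := by
      apply isPGroup_of_pow
      rintro ⟨a, ha⟩ ha'
      obtain ⟨k, hk⟩ := pow_eq_one_of_mem_isPGroup hWp ha'
      exact ⟨k, Subtype.ext (by simpa using hk)⟩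
    have h2 : (P : Subgroup C) ≤ W.subgroupOf C := by
      intro a ha
      exact hP₁W ⟨a, ha, rfl⟩
    have h3 : W.subgroupOf C = (P : Subgroup C) := P.3 h1 h2
    have h4 : (⟨w, hWC hw⟩ : C) ∈ W.subgroupOf C := hw
    rw [h3] at h4
    exact ⟨_, h4, rfl⟩
  obtain ⟨S, hP₁S⟩ := hP₁p.exists_le_sylow
  have hSne : (S : Subgroup G) ≠ ⊥ := S.ne_bot_of_dvd_card hpd
  obtain ⟨z, hzS, hzo, hzc⟩ := exists_central_of_order S.isPGroup' hSne
  have hzC : z ∈ C := memC.2 (hzc x (hP₁S hxP₁))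
  have hzP₁ : z ∈ P₁ :=
    hmax (S ⊓ C) (S.isPGroup'.to_le inf_le_left) (le_inf hP₁S hP₁C) inf_le_right ⟨hzS, hzC⟩
  have hxz : x ∈ zpowers z :=
    Cfsg.Agent.Lib.CyclicSylow.Basic.mem_zpowers_of_pow_eq_one hP₁c hzP₁ hzo hxP₁ hxpow
  have hSC : (S : Subgroup G) ≤ C := by
    intro s hs
    obtain ⟨k, hk⟩ := hxz
    have h1 : Commute s z := (hzc s hs).symm
    have h2 : Commute s (z ^ k) := h1.zpow_right k
    have hk' : z ^ k = x := hk
    rw [hk'] at h2
    exact memC.2 h2.eq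
  have hSP : (S : Subgroup G) = P₁ := le_antisymm (hmax _ S.isPGroup' hP₁S hSC) hP₁S
  have hSc : IsCyclic (S : Subgroup G) := by rw [hSP]; exact hP₁c
  obtain ⟨Q, hQS, g, hg, hgo, hgC⟩ := exists_frobenius_witness hna S hpd
  have hQp : IsPGroup p Q := S.isPGroup'.to_le hQS
  have hQne : Q ≠ ⊥ := by
    rintro rfl
    apply hgC
    rw [mem_centralizer_iff]
    intro h hh
    have : h = 1 := by simpa using hh
    simp [this]
  obtain ⟨w, hwQ, hwo⟩ := exists_of_order hQp hQne
  have hxS : x ∈ (S : Subgroup G) := hP₁S hxP₁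
  have hxw : x ∈ zpowers w :=
    Cfsg.Agent.Lib.CyclicSylow.Basic.mem_zpowers_of_pow_eq_one hSc (hQS hwQ) hwo hxS hxpow
  have hxQ : x ∈ Q := (zpowers_le.2 hwQ) hxw
  have hgxQ : g * x * g⁻¹ ∈ Q := (mem_normalizer_iff.1 hg x).1 hxQ
  have hgxo : orderOf (g * x * g⁻¹) = p := by
    rw [Cfsg.Agent.Lib.CyclicSylow.orderOf_conj', hxp]
  have hxg : x ∈ zpowers (g * x * g⁻¹) :=
    Cfsg.Agent.Lib.CyclicSylow.Basic.mem_zpowers_of_pow_eq_one hSc (hQS hgxQ) hgxo hxS hxpow
  have hgN : g ∈ normalizer (C : Set G) := by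
    apply Cfsg.Agent.Lib.CyclicSylow.mem_normalizer_of_conj_mem
    intro c hc
    apply memC.2
    obtain ⟨k, hk⟩ := hxg
    have hcx : c * x = x * c := memC.1 hc
    have h1 : Commute (g * c * g⁻¹) (g * x * g⁻¹) := by
      show g * c * g⁻¹ * (g * x * g⁻¹) = g * x * g⁻¹ * (g * c * g⁻¹)
      calc g * c * g⁻¹ * (g * x * g⁻¹) = g * (c * x) * g⁻¹ := by group
        _ = g * (x * c) * g⁻¹ := by rw [hcx]
        _ = _ := by group
    have h2 : Commute (g * c * g⁻¹) ((g * x * g⁻¹) ^ k) := h1.zpow_right k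
    have hk' : (g * x * g⁻¹) ^ k = x := hk
    rw [hk'] at h2
    exact h2.eq
  have hgC' : g ∈ C := hS C hCna g hgN
  apply hgC
  have := fpf hS hQp hg hgo hxQ hx1 (memC.1 hgC')
  rw [mem_centralizer_iff]
  intro h hh
  exact (this h hh).symm

/-- If `C(x)` is a nonabelian `p`-group, then `x` has a conjugate in `C(x)` other than itself. -/
theorem exists_conj_in [IsSimpleGroup G] (hna : ¬ IsMulCommutative G) (hS : SN G) {x : G}
    (hxp : orderOf x = p) (hT : IsPGroup p (centralizer ({x} : Set G)))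
    (hTna : ∃ a ∈ centralizer ({x} : Set G), ∃ b ∈ centralizer ({x} : Set G), a * b ≠ b * a) :
    ∃ h : G, h * x * h⁻¹ ∈ centralizer ({x} : Set G) ∧ h * x * h⁻¹ ≠ x := by
  classical
  set T := centralizer ({x} : Set G) with hTdef
  have hxT : x ∈ T := mem_C.2 rfl
  have hxpow : x ^ p = 1 := by rw [← hxp]; exact pow_orderOf_eq_one x
  have hx1 : x ≠ 1 := by
    rintro rfl
    rw [orderOf_one] at hxp
    exact hp.out.one_lt.ne hxp
  have hpd : p ∣ Nat.card G := by rw [← hxp]; exact orderOf_dvd_natCard x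
  obtain ⟨S, hTS⟩ := hT.exists_le_sylow
  have hTeq : T = (S : Subgroup G) := by
    by_contra hne
    obtain ⟨c, _, hcT, hcN⟩ := Cfsg.Agent.Lib.Transfer.Frobenius.exists_mem_normalizer_of_lt
      S.isPGroup' (lt_of_le_of_ne hTS hne)
    exact hcT (hS T hTna c hcN)
  obtain ⟨Q, hQS, h, hh, hho, hhC⟩ := exists_frobenius_witness hna S hpd
  have hQT : Q ≤ T := by rw [hTeq]; exact hQS
  have hQp : IsPGroup p Q := hT.to_le hQT
  have hQc : ∀ a ∈ Q, ∀ b ∈ Q, a * b = b * a := by
    intro a ha b hb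
    by_contra hab
    have h1 : h ∈ Q := hS Q ⟨a, ha, b, hb, hab⟩ h hh
    have h2 : h = 1 := eq_one_of_pow_coprime hQp h1 hho (pow_orderOf_eq_one h)
    apply hhC
    rw [h2]
    exact one_mem _
  set K := centralizer (Q : Set G) with hK
  have hhK : h ∈ normalizer (K : Set G) := by
    apply Cfsg.Agent.Lib.CyclicSylow.mem_normalizer_of_conj_mem
    intro c hc
    rw [hK, mem_centralizer_iff] at hc ⊢
    intro q hq
    have hq' : h⁻¹ * q * h ∈ Q := by
      have := (mem_normalizer_iff.1 hh (h⁻¹ * q * h)).2 (by simpa [mul_assoc] using hq)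
      exact this
    have := hc _ hq'
    calc q * (h * c * h⁻¹) = h * ((h⁻¹ * q * h) * c) * h⁻¹ := by group
      _ = h * (c * (h⁻¹ * q * h)) * h⁻¹ := by rw [this]
      _ = _ := by group
  have hKc : ∀ a ∈ K, ∀ b ∈ K, a * b = b * a := fun a ha b hb =>
    hS.comm_of_normalized hhK hhC ha hb
  have hxK : x ∈ K := by
    rw [hK, mem_centralizer_iff]
    intro q hq
    exact (mem_C.1 (hQT hq)).symm ▸ rfl
  let W : Subgroup G :=
    { carrier := {c | c ∈ K ∧ ∃ k : ℕ, c ^ p ^ k = 1}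
      mul_mem' := by
        rintro a b ⟨ha, k, hk⟩ ⟨hb, m, hm⟩
        refine ⟨K.mul_mem ha hb, k + m, ?_⟩
        have hc : Commute a b := hKc a ha b hb
        rw [hc.mul_pow, pow_add, pow_mul, hk, one_pow, one_mul, mul_comm (p ^ k), pow_mul, hm,
          one_pow]
      one_mem' := ⟨K.one_mem, 0, by simp⟩
      inv_mem' := by
        rintro a ⟨ha, k, hk⟩
        exact ⟨K.inv_mem ha, k, by rw [inv_pow, hk, inv_one]⟩ }
  have hWp : IsPGroup p W := isPGroup_of_pow fun a ha => ha.2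
  have hxW : x ∈ W := ⟨hxK, 1, by simpa using hxpow⟩
  have hQW : Q ≤ W := by
    intro q hq
    refine ⟨?_, pow_eq_one_of_mem_isPGroup hQp hq⟩
    rw [hK, mem_centralizer_iff]
    intro q' hq'
    exact hQc q' hq' q hq
  have hhW : h ∈ normalizer (W : Set G) := by
    apply Cfsg.Agent.Lib.CyclicSylow.mem_normalizer_of_conj_mem
    rintro c ⟨hc, k, hk⟩
    refine ⟨(mem_normalizer_iff.1 hhK c).1 hc, k, ?_⟩
    have : (h * c * h⁻¹) ^ p ^ k = h * c ^ p ^ k * h⁻¹ := by
      simp
    rw [this, hk]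
    simp
  have hWT : W ≤ T := by
    rintro c ⟨hc, _⟩
    exact mem_C.2 (hKc c hc x hxK)
  refine ⟨h, hWT ((mem_normalizer_iff.1 hhW x).1 hxW), ?_⟩
  intro heq
  have hcomm : h * x = x * h := by
    calc h * x = h * x * h⁻¹ * h := by group
      _ = x * h := by rw [heq]
  have := fpf hS hWp hhW hho hxW hx1 hcomm
  apply hhC
  rw [mem_centralizer_iff]
  intro q hq
  exact (this q (hQW hq)).symm

end Main

end Cfsg.Agent.Lib.SelfNorm
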