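/-
# The quotient `N(A)/A` for a self-centralizing `A`
-/
import Mathlib
import Cfsg.Agent.Lib.SelfNorm.CentG

set_option autoImplicit false
set_option linter.style.haveILetI false

open Subgroup
open scoped Pointwise

namespace Cfsg.Agent.Lib.SelfNorm

universe u

section Q

variable {G : Type u} [Group G] {p : ℕ} [hp : Fact p.Prime]

/-- The quotient `N(A)/A`. -/
abbrev NQ (A : Subgroup G) : Type u :=
  ↥(normalizer (A : Set G)) ⧸ (A.subgroupOf (normalizer (A : Set G)))

instance normal_sub (A : Subgroup G) : (A.subgroupOf (normalizer (A : Set G))).Normal :=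
  normal_in_normalizer

/-- Preimage in `G` of a subgroup of `N(A)/A`. -/
def up (A : Subgroup G) (X : Subgroup (NQ A)) : Subgroup G :=
  (X.comap (QuotientGroup.mk' (A.subgroupOf (normalizer (A : Set G))))).map
    (normalizer (A : Set G)).subtype

theorem mem_up {A : Subgroup G} {X : Subgroup (NQ A)} {c : G} :
    c ∈ up A X ↔ ∃ h : c ∈ normalizer (A : Set G), (QuotientGroup.mk ⟨c, h⟩ : NQ A) ∈ X := by
  constructor
  · rintro ⟨a, ha, rfl⟩
    exact ⟨a.2, ha⟩
  · rintro ⟨h, hc⟩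
    exact ⟨⟨c, h⟩, hc, rfl⟩

theorem mk_eq_one_iff {A : Subgroup G} {c : G} (h : c ∈ normalizer (A : Set G)) :
    (QuotientGroup.mk ⟨c, h⟩ : NQ A) = 1 ↔ c ∈ A := by
  rw [QuotientGroup.eq_one_iff]
  rfl

theorem le_up (A : Subgroup G) (X : Subgroup (NQ A)) : A ≤ up A X := by
  intro a ha
  refine mem_up.2 ⟨le_normalizer ha, ?_⟩
  rw [(mk_eq_one_iff _).2 ha]
  exact X.one_mem

theorem up_eq_bot_of_le {A : Subgroup G} {X : Subgroup (NQ A)} (h : up A X ≤ A) : X = ⊥ := by
  rw [eq_bot_iff]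
  intro c hc
  obtain ⟨c', rfl⟩ := QuotientGroup.mk'_surjective _ c
  have h1 : (c' : G) ∈ up A X := mem_up.2 ⟨c'.2, hc⟩
  have h2 := h h1
  exact (mem_bot).2 ((mk_eq_one_iff c'.2).2 h2)

theorem up_normal {A : Subgroup G} [Finite G] {X : Subgroup (NQ A)} (hX : X.Normal) {c : G}
    (hc : c ∈ normalizer (A : Set G)) : c ∈ normalizer ((up A X : Subgroup G) : Set G) := by
  haveI := Finite.of_injective (fun a : up A X => (a : G)) Subtype.val_injective
  apply Cfsg.Agent.Lib.CyclicSylow.mem_normalizer_of_conj_mem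
  intro k hk
  obtain ⟨hkN, hkX⟩ := mem_up.1 hk
  refine mem_up.2 ⟨(normalizer (A : Set G)).mul_mem ((normalizer (A : Set G)).mul_mem hc hkN)
    ((normalizer (A : Set G)).inv_mem hc), ?_⟩
  exact hX.conj_mem _ hkX (QuotientGroup.mk ⟨c, hc⟩)

/-- Simplicity of `N(A)/A`. -/
theorem simple_NQ [Finite G] (hS : SN G) {A : Subgroup G}
    (hcent : ∀ K : Subgroup G, A ≤ K → (∀ a ∈ K, ∀ b ∈ K, a * b = b * a) → K ≤ A)
    {a₁ : G} (ha₁N : a₁ ∈ normalizer (A : Set G)) (ha₁A : a₁ ∉ A) : IsSimpleGroup (NQ A) := by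
  haveI : Nontrivial (NQ A) := by
    refine ⟨⟨QuotientGroup.mk ⟨a₁, ha₁N⟩, 1, ?_⟩⟩
    intro h
    exact ha₁A ((mk_eq_one_iff ha₁N).1 h)
  refine ⟨?_⟩
  intro X hX
  by_cases hXt : X = ⊤
  · exact Or.inr hXt
  left
  have : ∃ c, c ∉ X := by
    by_contra hc
    push Not at hc
    exact hXt (eq_top_iff.2 fun c _ => hc c)
  obtain ⟨c, hc⟩ := this
  obtain ⟨c', rfl⟩ := QuotientGroup.mk'_surjective _ c
  have hcup : (c' : G) ∉ up A X := by
    intro h
    obtain ⟨_, h2⟩ := mem_up.1 h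
    exact hc h2
  have hcN : (c' : G) ∈ normalizer ((up A X : Subgroup G) : Set G) := up_normal hX c'.2
  apply up_eq_bot_of_le
  apply hcent _ (le_up A X)
  intro a ha b hb
  exact hS.comm_of_normalized hcN hcup ha hb

theorem card_NQ_lt [Finite G] {A : Subgroup G} (hA : A ≠ ⊥) : Nat.card (NQ A) < Nat.card G := by
  set N := normalizer (A : Set G) with hN
  have h1 := Subgroup.card_mul_index (A.subgroupOf N)
  have h2 : A.subgroupOf N ≠ ⊥ := by
    intro h
    apply hA
    rw [eq_bot_iff]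
    intro a ha
    have h3 : (⟨a, le_normalizer ha⟩ : N) ∈ A.subgroupOf N := ha
    rw [h] at h3
    have h4 := (mem_bot).1 h3
    exact (mem_bot).2 (congrArg Subtype.val h4)
  have h3 : 1 < Nat.card (A.subgroupOf N) := by
    have h4 : Nat.card (A.subgroupOf N) ≠ 1 := fun h => h2 ((Subgroup.eq_bot_iff_card _).2 h)
    have h5 : 0 < Nat.card (A.subgroupOf N) := Nat.card_pos
    omega
  have h4 : Nat.card N ≤ Nat.card G := Nat.card_le_card_of_injective _ Subtype.val_injective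
  have h5 : (A.subgroupOf N).index = Nat.card (NQ A) := rfl
  have h6 : 0 < Nat.card (NQ A) := Nat.card_pos
  rw [h5] at h1
  nlinarith

theorem card_NQ_dvd [Finite G] (A : Subgroup G) : Nat.card (NQ A) ∣ Nat.card G := by
  have h1 : Nat.card (NQ A) ∣ Nat.card (normalizer (A : Set G)) :=
    Subgroup.index_dvd_card (A.subgroupOf (normalizer (A : Set G)))
  exact h1.trans (Subgroup.card_subgroup_dvd_card _)

/-- The `p`-subgroups of `N(A)/A` have order at most `p`. -/
theorem psub_card_le [Finite G] (hS : SN G) {A : Subgroup G} (hAp : IsPGroup p A)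
    (hcent : ∀ K : Subgroup G, A ≤ K → (∀ a ∈ K, ∀ b ∈ K, a * b = b * a) → K ≤ A)
    (U : Subgroup (NQ A)) (hU : IsPGroup p U) : Nat.card U ≤ p := by
  classical
  by_contra hcon
  push Not at hcon
  have hUne : U ≠ ⊥ := by
    rintro rfl
    rw [card_bot] at hcon
    have := hp.out.one_lt
    omega
  obtain ⟨v, hvU, hvo⟩ := exists_of_order hU hUne
  set V : Subgroup (NQ A) := zpowers v with hV
  have hVU : V ≤ U := zpowers_le.2 hvU
  have hVne : V ≠ U := by
    intro h
    rw [← h, hV, Nat.card_zpowers, hvo] at hcon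
    exact lt_irrefl _ hcon
  -- `up U` is a `p`-group
  have hupU : IsPGroup p (up A U) := by
    apply isPGroup_of_pow
    intro c hc
    obtain ⟨h, hcU⟩ := mem_up.1 hc
    obtain ⟨k, hk⟩ := pow_eq_one_of_mem_isPGroup hU hcU
    have h1 : (c ^ p ^ k) ∈ A := by
      have h2 : (QuotientGroup.mk ((⟨c, h⟩ : normalizer (A : Set G)) ^ p ^ k) : NQ A) = 1 := by
        rw [QuotientGroup.mk_pow]
        exact hk
      have h3 := (QuotientGroup.eq_one_iff _).1 h2
      exact h3
    obtain ⟨m, hm⟩ := pow_eq_one_of_mem_isPGroup hAp h1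
    exact ⟨k + m, by rw [pow_add, pow_mul, hm]⟩
  have hlt : up A V < up A U := by
    refine lt_of_le_of_ne ?_ ?_
    · intro c hc
      obtain ⟨h, hcV⟩ := mem_up.1 hc
      exact mem_up.2 ⟨h, hVU hcV⟩
    · intro h
      apply hVne
      apply le_antisymm hVU
      intro c hc
      obtain ⟨c', rfl⟩ := QuotientGroup.mk'_surjective _ c
      have h1 : (c' : G) ∈ up A U := mem_up.2 ⟨c'.2, hc⟩
      rw [← h] at h1
      obtain ⟨_, h2⟩ := mem_up.1 h1
      exact h2
  have hb : V = ⊥ := up_eq_bot_of_le (hcent _ (le_up A V)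
    (fun a ha b hb => hS.comm_of_lt hupU hlt ha hb))
  have hv1 : v = 1 := by
    have : v ∈ V := mem_zpowers v
    rw [hb] at this
    exact (mem_bot).1 this
  rw [hv1, orderOf_one] at hvo
  exact hp.out.one_lt.ne hvo

end Q

section Main

variable {G : Type u} [Group G] [Finite G] {p : ℕ} [hp : Fact p.Prime]

/-- The final contradiction of the `p`-group case. -/
theorem no_conj_in [IsSimpleGroup G] (hS : SN G) {x g : G} (hxp : orderOf x = p)
    {T : Subgroup G} (hTdef : T = centralizer ({x} : Set G)) (hT : IsPGroup p T)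
    (hTna : ∃ a ∈ T, ∃ b ∈ T, a * b ≠ b * a) (hy : g * x * g⁻¹ ∈ T) (hyx : g * x * g⁻¹ ≠ x)
    (hcase : p = 2 ∨ Odd (Nat.card G))
    (hQ : ∀ (Q : Type u) [Group Q] [Finite Q] [IsSimpleGroup Q], Nat.card Q < Nat.card G → SN Q →
      ¬ IsMulCommutative Q → Even (Nat.card Q)) : False := by
  classical
  have memT : ∀ {a : G}, a ∈ T ↔ a * x = x * a := by
    intro a; rw [hTdef]; exact mem_C
  obtain ⟨y, hydef⟩ : ∃ y, y = g * x * g⁻¹ := ⟨_, rfl⟩
  rw [← hydef] at hy hyx
  set T' : Subgroup G := T.map (MulAut.conj g).toMonoidHom with hT'def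
  have memT' : ∀ {a : G}, a ∈ T' ↔ a * y = y * a := by
    intro a
    constructor
    · rintro ⟨b, hb, rfl⟩
      have hb' := memT.1 hb
      show g * b * g⁻¹ * y = y * (g * b * g⁻¹)
      rw [hydef]
      calc g * b * g⁻¹ * (g * x * g⁻¹) = g * (b * x) * g⁻¹ := by group
        _ = g * (x * b) * g⁻¹ := by rw [hb']
        _ = _ := by group
    · intro h
      refine ⟨g⁻¹ * a * g, memT.2 ?_, ?_⟩
      · rw [hydef] at h
        have h1 : g⁻¹ * (a * (g * x * g⁻¹)) * g = g⁻¹ * ((g * x * g⁻¹) * a) * g := by rw [h]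
        calc g⁻¹ * a * g * x = g⁻¹ * (a * (g * x * g⁻¹)) * g := by group
          _ = g⁻¹ * ((g * x * g⁻¹) * a) * g := h1
          _ = _ := by group
      · show g * (g⁻¹ * a * g) * g⁻¹ = a
        group
  have hT'p : IsPGroup p T' := hT.map _
  have hcard : Nat.card T' = Nat.card T :=
    Nat.card_congr (Subgroup.equivMapOfInjective T _ (MulAut.conj g).injective).toEquiv.symm
  have hxT : x ∈ T := memT.2 rfl
  have hxT' : x ∈ T' := memT'.2 (memT.1 hy).symm
  have hyT' : y ∈ T' := memT'.2 rfl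
  have hx1 : x ≠ 1 := by
    rintro rfl
    rw [orderOf_one] at hxp
    exact hp.out.one_lt.ne hxp
  have heqcontra : T = T' → False := by
    intro heq
    have hgN : g ∈ normalizer (T : Set G) := by
      apply Cfsg.Agent.Lib.CyclicSylow.mem_normalizer_of_conj_mem
      intro a ha
      rw [heq]
      exact ⟨a, ha, rfl⟩
    have hgT := memT.1 (hS T hTna g hgN)
    apply hyx
    rw [hydef, hgT]
    group
  have hne : ¬ T ≤ T' := fun h => heqcontra (Subgroup.eq_of_le_of_card_ge h (by rw [hcard]))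
  have hne' : ¬ T' ≤ T := fun h =>
    heqcontra (Subgroup.eq_of_le_of_card_ge h (by rw [hcard])).symm
  set A : Subgroup G := T ⊓ T' with hAdef
  have hAT : A < T := inf_lt_left.2 hne
  have hAT' : A < T' := inf_lt_right.2 hne'
  have hAp : IsPGroup p A := hT.to_le inf_le_left
  have hxA : x ∈ A := ⟨hxT, hxT'⟩
  have hyA : y ∈ A := ⟨hy, hyT'⟩
  have hAne : A ≠ ⊥ := by
    intro h
    rw [h] at hxA
    exact hx1 ((mem_bot).1 hxA)
  have hcent : ∀ K : Subgroup G, A ≤ K → (∀ a ∈ K, ∀ b ∈ K, a * b = b * a) → K ≤ A := by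
    intro K hAK hK k hk
    exact ⟨memT.2 (hK k hk x (hAK hxA)), memT'.2 (hK k hk y (hAK hyA))⟩
  obtain ⟨a₁, ha₁T, ha₁A, ha₁N⟩ := Cfsg.Agent.Lib.Transfer.Frobenius.exists_mem_normalizer_of_lt hT hAT
  obtain ⟨a₂, ha₂T, ha₂A, ha₂N⟩ := Cfsg.Agent.Lib.Transfer.Frobenius.exists_mem_normalizer_of_lt hT'p hAT'
  haveI hsim : IsSimpleGroup (NQ A) := simple_NQ hS hcent ha₁N ha₁A
  have hSQ : SN (NQ A) := (hS.subgroup _).quotient _
  -- nonabelian
  have hnab : ¬ IsMulCommutative (NQ A) := by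
    intro hc
    let K : Subgroup (NQ A) :=
      ((T ⊓ normalizer (A : Set G)).subgroupOf (normalizer (A : Set G))).map (QuotientGroup.mk' _)
    have hK : K.Normal := by
      constructor
      intro n hn c
      have : c * n * c⁻¹ = n := by
        rw [mul_comm' c n]; simp
      rw [this]
      exact hn
    have hKne : K ≠ ⊥ := by
      intro h
      have h1 : (QuotientGroup.mk ⟨a₁, ha₁N⟩ : NQ A) ∈ K :=
        ⟨⟨a₁, ha₁N⟩, ⟨ha₁T, ha₁N⟩, rfl⟩
      rw [h] at h1
      exact ha₁A ((mk_eq_one_iff ha₁N).1 ((mem_bot).1 h1))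
    have hKt : K = ⊤ := (hK.eq_bot_or_eq_top).resolve_left hKne
    have h2 : (QuotientGroup.mk ⟨a₂, ha₂N⟩ : NQ A) ∈ K := by rw [hKt]; trivial
    obtain ⟨u, hu, hueq⟩ := h2
    have h3 : (u : G)⁻¹ * a₂ ∈ A := by
      have h4 : (QuotientGroup.mk u : NQ A) = QuotientGroup.mk ⟨a₂, ha₂N⟩ := hueq
      have h5 := QuotientGroup.eq.1 h4
      exact h5
    have h6 : (u : G) ∈ T := hu.1
    have h7 : a₂ ∈ T := by
      have h8 : a₂ = u * ((u : G)⁻¹ * a₂) := by group
      rw [h8]
      exact T.mul_mem h6 h3.1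
    exact ha₂A ⟨h7, ha₂T⟩
  have hlt := card_NQ_lt hAne
  rcases hcase with rfl | hodd
  · -- `p = 2`
    have h2d : 2 ∣ Nat.card (NQ A) := by
      have hne1 : (QuotientGroup.mk ⟨a₁, ha₁N⟩ : NQ A) ≠ 1 :=
        fun h => ha₁A ((mk_eq_one_iff ha₁N).1 h)
      obtain ⟨k, hk⟩ := pow_eq_one_of_mem_isPGroup hT ha₁T
      have h1 : (QuotientGroup.mk ⟨a₁, ha₁N⟩ : NQ A) ^ 2 ^ k = 1 := by
        rw [← QuotientGroup.mk_pow]
        have : (⟨a₁, ha₁N⟩ : normalizer (A : Set G)) ^ 2 ^ k = 1 := Subtype.ext (by simpa using hk)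
        rw [this]
        rfl
      have h3 := orderOf_dvd_of_pow_eq_one h1
      obtain ⟨j, _, hj⟩ := (Nat.dvd_prime_pow Nat.prime_two).1 h3
      have hj0 : j ≠ 0 := by
        rintro rfl
        rw [pow_zero, orderOf_eq_one_iff] at hj
        exact hne1 hj
      have h5 : 2 ∣ orderOf (QuotientGroup.mk ⟨a₁, ha₁N⟩ : NQ A) := by
        rw [hj]; exact dvd_pow_self 2 hj0
      exact h5.trans (orderOf_dvd_natCard _)
    let P : Sylow 2 (NQ A) := default
    apply not_cyclic_sylow_two hnab h2d P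
    have hle := psub_card_le hS hAp hcent (P : Subgroup (NQ A)) P.isPGroup'
    have hpos : 0 < Nat.card (P : Subgroup (NQ A)) := Nat.card_pos
    rcases (by omega : Nat.card (P : Subgroup (NQ A)) = 1 ∨ Nat.card (P : Subgroup (NQ A)) = 2) with h | h
    · haveI : Subsingleton (P : Subgroup (NQ A)) := (Nat.card_eq_one_iff_unique.1 h).1
      exact isCyclic_of_subsingleton
    · haveI : Fact (Nat.Prime 2) := ⟨Nat.prime_two⟩
      exact isCyclic_of_prime_card h
  · have hev := hQ (NQ A) hlt hSQ hnab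
    have h1 := card_NQ_dvd A
    obtain ⟨m, hm⟩ := hev
    have h2 : 2 ∣ Nat.card G := by
      apply Dvd.dvd.trans _ h1
      rw [hm]
      exact ⟨m, by ring⟩
    rw [← Nat.not_even_iff_odd] at hodd
    exact hodd (even_iff_two_dvd.2 h2)

/-- **Main centralizer theorem.** -/
theorem cent_abelian [IsSimpleGroup G] (hna : ¬ IsMulCommutative G) (hS : SN G) {x : G}
    (hxp : orderOf x = p) (hcase : p = 2 ∨ Odd (Nat.card G))
    (hQ : ∀ (Q : Type u) [Group Q] [Finite Q] [IsSimpleGroup Q], Nat.card Q < Nat.card G → SN Q →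
      ¬ IsMulCommutative Q → Even (Nat.card Q)) :
    ∀ a ∈ centralizer ({x} : Set G), ∀ b ∈ centralizer ({x} : Set G), a * b = b * a := by
  classical
  by_contra hcon
  push Not at hcon
  obtain ⟨a, ha, b, hb, hab⟩ := hcon
  have hCna : ∃ a ∈ centralizer ({x} : Set G), ∃ b ∈ centralizer ({x} : Set G), a * b ≠ b * a :=
    ⟨a, ha, b, hb, hab⟩
  let x' : centralizer ({x} : Set G) := ⟨x, mem_C.2 rfl⟩
  have hx'c : x' ∈ center (centralizer ({x} : Set G)) := by
    rw [mem_center_iff]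
    intro c
    exact Subtype.ext (mem_C.1 c.2)
  have hx'o : orderOf x' = p := by
    rw [← hxp]
    exact Subgroup.orderOf_mk _ _
  let P : Sylow p (centralizer ({x} : Set G)) := default
  rcases cent_structure (hS.subgroup _) ⟨⟨a, ha⟩, ⟨b, hb⟩, fun h => hab (congrArg Subtype.val h)⟩
      hx'c hx'o P with hpg | hcyc
  · obtain ⟨h, h1, h2⟩ := exists_conj_in hna hS hxp hpg hCna
    exact no_conj_in hS hxp rfl hpg hCna h1 h2 hcase hQ
  · exact no_cyclic_case hna hS hxp rfl hCna P hcyc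

end Main

end Cfsg.Agent.Lib.SelfNorm
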